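import Cfsg.Agent.N2.Cl.Cyc.Num
import Cfsg.Agent.N2.Cy.Unit

/-!
# N2 (S3519), symplectic groups, at least three blocks: the inequalities and two small rings (helper79)
-/

set_option autoImplicit false

namespace Cfsg.Agent.N2C.FrSp

open Cfsg.Agent.N2C.Cyc Cfsg.Agent.N2.Cy Nat

theorem red {q m t X Y : ℕ} (hq : 2 ≤ q) (h1 : 3 * (X * t !) ≤ 2 * q ^ Y)
    (h2 : Y + (2 * m ^ 2 + m) * t ≤ 2 * (m * t) ^ 2 + m * t) : X * (t ! * oSp m q ^ t) ≤ oSp (m * t) q := by
  refine Nat.le_of_mul_le_mul_left (le_trans ?_ (oSp_ge' hq (m * t))) three_pos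
  calc 3 * (X * (t ! * oSp m q ^ t)) = 3 * (X * t !) * oSp m q ^ t := by ring
    _ ≤ 2 * q ^ Y * (q ^ (2 * m ^ 2 + m)) ^ t := Nat.mul_le_mul h1 (Nat.pow_le_pow_left (oSp_le m q) t)
    _ = 2 * q ^ (Y + (2 * m ^ 2 + m) * t) := by rw [← pow_mul, pow_add, mul_assoc]
    _ ≤ _ := Nat.mul_le_mul_left 2 (Nat.pow_le_pow_right (by omega) h2)

theorem fact_le (j : ℕ) : 3 * (j + 4)! ≤ 2 * 2 ^ ((j + 4) * (j + 2)) := by
  induction j with
  | zero => decide
  | succ j ih =>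
    have h1 : j + 5 ≤ 2 ^ (2 * j + 7) := Nat.lt_two_pow_self.le.trans (Nat.pow_le_pow_right two_pos (by omega))
    calc 3 * (j + 1 + 4)! = (j + 5) * (3 * (j + 4)!) := by rw [show j + 1 + 4 = j + 4 + 1 from rfl, factorial_succ]; ring
      _ ≤ 2 ^ (2 * j + 7) * (2 * 2 ^ ((j + 4) * (j + 2))) := Nat.mul_le_mul h1 ih
      _ = _ := by rw [show (j + 1 + 4) * (j + 1 + 2) = 2 * j + 7 + (j + 4) * (j + 2) by ring, pow_add]; ring

theorem red' {q m t Z : ℕ} (hq : 2 ≤ q) (h1 : 3 * t ! ≤ 2 * 2 ^ Z)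
    (h2 : 5 * (m * t) + Z + (2 * m ^ 2 + m) * t ≤ 2 * (m * t) ^ 2 + m * t) :
    ((q + 1) ^ (m * t)) ^ 3 * (t ! * oSp m q ^ t) ≤ oSp (m * t) q := by
  refine red hq ?_ h2
  have h3 : (q + 1) ^ 3 ≤ q ^ 5 := by
    obtain ⟨r, rfl⟩ := Nat.exists_eq_add_of_le' hq
    ring_nf
    omega
  calc 3 * (((q + 1) ^ (m * t)) ^ 3 * t !) = ((q + 1) ^ 3) ^ (m * t) * (3 * t !) := by rw [← pow_mul, ← pow_mul]; ring
    _ ≤ (q ^ 5) ^ (m * t) * (2 * q ^ Z) :=
      Nat.mul_le_mul (Nat.pow_le_pow_left h3 _) (h1.trans (Nat.mul_le_mul_left 2 (Nat.pow_le_pow_left hq Z)))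
    _ = _ := by rw [← pow_mul, pow_add]; ring

theorem num {q m t : ℕ} (hq : 2 ≤ q) (hm : 1 ≤ m) (ht : 3 ≤ t) (hne : m = 1 → t = 3 → 4 ≤ q) :
    ((q + 1) ^ (m * t)) ^ 3 * (t ! * oSp m q ^ t) ≤ oSp (m * t) q := by
  rcases hm.eq_or_lt with rfl | hm
  · rcases ht.eq_or_lt with rfl | ht
    · rcases (hne rfl rfl).eq_or_lt with rfl | h5
      · decide +kernel
      · refine red (Y := 12) hq ?_ (by norm_num)
        have h1 := Nat.pow_le_pow_left (show 5 * (q + 1) ≤ 6 * q by omega) 9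
        have h2 := Nat.mul_le_mul_right (q ^ 9) (Nat.pow_le_pow_left (show 5 ≤ q from h5) 3)
        rw [mul_pow, mul_pow] at h1
        rw [← pow_add] at h2
        rw [← pow_mul, show 3 ! = 6 from rfl]
        norm_num at h1 h2 ⊢
        omega
    rcases (show 4 ≤ t from ht).eq_or_lt with rfl | ht
    · rcases hq.eq_or_lt with rfl | h3
      · decide +kernel
      · refine red (Y := 24) hq ?_ (by norm_num)
        have h1 := Nat.pow_le_pow_left (show 2 * (q + 1) ≤ q ^ 2 by nlinarith) 12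
        rw [mul_pow, ← pow_mul] at h1
        rw [← pow_mul, show 4 ! = 24 from rfl]
        norm_num at h1 ⊢
        omega
    · obtain ⟨j, rfl⟩ := Nat.exists_eq_add_of_le' (show 5 ≤ t from ht)
      exact red' hq (fact_le (j + 1)) (by nlinarith)
  obtain ⟨m, rfl⟩ := Nat.exists_eq_add_of_le' (show 2 ≤ m from hm)
  rcases ht.eq_or_lt with rfl | ht
  · exact red' (Z := 4) hq (by decide) (by nlinarith)
  · obtain ⟨j, rfl⟩ := Nat.exists_eq_add_of_le' (show 4 ≤ t from ht)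
    refine red' hq (fact_le j) ?_
    ring_nf
    omega

theorem num2 : 9 ^ 3 * (3 ! * oSp 1 2 ^ 3) ≤ oSp (1 * 3) 2 := by decide +kernel

theorem num3 : 36 ^ 3 * (3 ! * oSp 1 3 ^ 3) ≤ oSp (1 * 3) 3 := by decide +kernel

variable {R : Type} [CommRing R] [Finite R]

/-- `F₆₄` -/
theorem field9 (h2 : (2 : R) = 0) (hc : Nat.card R ≤ 64) {a : R} (h9 : a ^ 9 = 1) (h3 : IsUnit (a ^ 3 - 1)) {x : R}
    (hx : x ≠ 0) : IsUnit x := by
  by_contra hu
  obtain ⟨M, hM, hxM⟩ := exists_max_ideal_of_mem_nonunits hu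
  let _ := Ideal.Quotient.field M
  have := fin_quot M
  have := Fintype.ofFinite (R ⧸ M)
  have : CharP (R ⧸ M) 2 := (CharP.charP_iff_prime_eq_zero prime_two).2 (by
    have h4 := congrArg (Ideal.Quotient.mk M) h2
    rwa [map_ofNat, map_zero] at h4)
  have : Fact (Nat.Prime 3) := ⟨prime_three⟩
  obtain ⟨j, -, hj⟩ := FiniteField.card (R ⧸ M) 2
  have h4 : Ideal.Quotient.mk M a ^ 9 = 1 := by rw [← map_pow, h9, map_one]
  have h5 : orderOf (Ideal.Quotient.mk M a) = 3 ^ (1 + 1) := orderOf_eq_prime_pow (fun h5 => by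
    have h6 := (h3.map (Ideal.Quotient.mk M)).ne_zero
    rw [map_sub, map_pow, map_one] at h6
    exact h6 (sub_eq_zero.2 h5)) h4
  have h6 : 3 ^ (1 + 1) ∣ 2 ^ (j : ℕ) - 1 := by
    rw [← h5, ← hj, orderOf_dvd_iff_pow_eq_one]
    exact FiniteField.pow_card_sub_one_eq_one _ fun h0 => by simp [h0] at h4
  have h7 := (Nat.card_le_card_of_surjective _ (Ideal.Quotient.mk_surjective (I := M))).trans hc
  rw [Nat.card_eq_fintype_card, hj] at h7
  have h8 : (j : ℕ) ≤ 6 := (Nat.pow_le_pow_iff_right one_lt_two).1 h7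
  have h0 : 0 < (j : ℕ) := j.pos
  have h10 : (j : ℕ) = 6 := by
    generalize (j : ℕ) = i at h6 h8 h0
    interval_cases i <;> first | rfl | exact absurd h6 (by decide)
  refine hx (((Ideal.Quotient.mk_surjective (I := M)).bijective_of_nat_card_le ?_).1
    ((Ideal.Quotient.eq_zero_iff_mem.2 hxM).trans (map_zero _).symm))
  rw [Nat.card_eq_fintype_card (α := R ⧸ M), hj, h10]
  exact hc

/-- `F₉[y] / y³` -/
theorem loc36 [Nontrivial R] {σ : R →+* R} (h3 : (3 : R) = 0) (Z : Finset R) (hZ : Z.card ≤ 4)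
    (hu : ∀ u, u * σ u = 1 → u ^ 3 ∈ Z ∧ u ^ 12 = 1) {δ : R} (hδ : σ δ = -δ) (hδ' : IsUnit δ) (hs : sk σ ⊤ ≤ 27) :
    uu σ ≤ 36 := by
  have h1 : Nat.card {x : R // σ x = -x ∧ x ^ 3 = 0} * Nat.card (Fin 3) ≤ sk σ ⊤ := by
    rw [← Nat.card_prod]
    refine Nat.card_le_card_of_injective (fun y => ⟨y.1.1 + ![0, δ, -δ] y.2, trivial, ?_⟩) ?_
    · obtain ⟨x, i⟩ := y
      fin_cases i <;> simp [x.2.1, hδ, add_comm]
    · rintro ⟨⟨x, hx, hx'⟩, i⟩ ⟨⟨y, hy, hy'⟩, j⟩ e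
      have e1 : x + ![0, δ, -δ] i = y + ![0, δ, -δ] j := congrArg Subtype.val e
      have e2 : ∀ c : R, x - y = δ * (1 + 3 * c) ∨ y - x = δ * (1 + 3 * c) → False := fun c hc => by
        rw [h3, zero_mul, add_zero, mul_one] at hc
        refine (hδ'.pow 3).ne_zero ?_
        rcases hc with hc | hc <;> rw [← hc]
        · linear_combination hx' - hy' - x * y * (x - y) * h3
        · linear_combination hy' - hx' - x * y * (y - x) * h3
      have e3 : i = j := by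
        fin_cases i <;> fin_cases j <;> first | rfl | skip
        all_goals
          exfalso
          simp only [Fin.zero_eta, Fin.mk_one, Fin.reduceFinMk, Matrix.cons_val_zero, Matrix.cons_val_one,
            Matrix.cons_val] at e1
        · exact e2 0 (Or.inl (by linear_combination e1))
        · exact e2 0 (Or.inr (by linear_combination -e1))
        · exact e2 0 (Or.inr (by linear_combination -e1))
        · exact e2 (-1) (Or.inl (by linear_combination e1))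
        · exact e2 0 (Or.inl (by linear_combination e1))
        · exact e2 (-1) (Or.inr (by linear_combination -e1))
      subst e3
      exact Prod.ext (Subtype.ext (add_right_cancel e1)) rfl
  have h2 : uu σ ≤ Nat.card Z * Nat.card {x : R // σ x = -x ∧ x ^ 3 = 0} := by
    rw [← Nat.card_prod]
    refine Nat.card_le_card_of_injective (fun u => (⟨u.1 ^ 3, (hu _ u.2).1⟩, ⟨u.1 ^ 4 - u.1 ^ 8, ?_, ?_⟩)) ?_
    · have h4 := (hu _ u.2).2
      have h5 : σ u.1 ^ 4 = u.1 ^ 8 := by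
        have h6 := congrArg (· ^ 4) u.2
        linear_combination u.1 ^ 8 * h6 - σ u.1 ^ 4 * h4
      rw [map_sub, map_pow, map_pow, show σ u.1 ^ 8 = (σ u.1 ^ 4) ^ 2 by ring, h5]
      linear_combination -u.1 ^ 4 * h4
    · linear_combination (-u.1 ^ 12) * (hu _ u.2).2 + (u.1 ^ 20 - u.1 ^ 16) * h3
    · rintro ⟨u, hu'⟩ ⟨v, hv'⟩ e
      have e1 : u ^ 3 = v ^ 3 := congrArg (fun y => y.1.1) e
      have e2 : u ^ 4 - u ^ 8 = v ^ 4 - v ^ 8 := congrArg (fun y => y.2.1) e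
      have a1 := (hu u hu').2
      have a2 := (hu v hv').2
      have e3 : u ^ 4 = v ^ 4 := by
        generalize hw : u ^ 4 = w
        generalize hw' : v ^ 4 = w'
        have b1 : w ^ 3 = 1 := by rw [← hw, ← pow_mul, a1]
        have b2 : w' ^ 3 = 1 := by rw [← hw', ← pow_mul, a2]
        have b3 : (w - w') * (1 - w - w') = 0 := by rw [← hw, ← hw']; linear_combination e2
        have b4 : (1 - w - w') ^ 3 = -1 := by
          linear_combination -b1 - b2 + ((w + w') ^ 2 - (w + w') - w * w' * (w + w')) * h3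
        linear_combination -(1 - w - w') ^ 2 * b3 + (w - w') * b4
      exact Subtype.ext (by linear_combination u ^ 9 * e3 - v * u ^ 9 * e1 - (u - v) * a1)
  rw [Nat.card_eq_finsetCard] at h2
  rw [Nat.card_fin] at h1
  have h4 : Nat.card {x : R // σ x = -x ∧ x ^ 3 = 0} ≤ 9 := by omega
  exact h2.trans (Nat.mul_le_mul hZ h4)

end Cfsg.Agent.N2C.FrSp
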